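import Mathlib

/-!
# Two-transitive groups with an involution whose centraliser has constant fixity

If every non-identity element of the centraliser of the involution `t` fixes exactly `i` points, then
counting swapped pairs shows that every element interchanging two points is conjugate to `t`.
-/

set_option autoImplicit false
set_option linter.unusedSectionVars false
set_option linter.style.haveILetI false

namespace CfsgLib.ConstFix

open MulAction

variable {G Ω : Type*} [Group G] [MulAction G Ω]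

/-- The hypotheses of the theorem. -/
structure Hyp [Finite G] [Fintype Ω] (t : G) (i : ℕ) : Prop where
  faithful : FaithfulSMul G Ω
  two : ∀ a b a' b' : Ω, a ≠ b → a' ≠ b' → ∃ g : G, g • a = a' ∧ g • b = b'
  order : orderOf t = 2
  fix : Nat.card {x : Ω // t • x = x} = i
  const : ∀ g : G, Commute g t → g ≠ 1 → Nat.card {x : Ω // g • x = x} = i

/-- The two-point stabiliser. -/
abbrev stab₂ (a b : Ω) : Subgroup G := stabilizer G a ⊓ stabilizer G b

theorem mem_stab₂ {a b : Ω} {g : G} : g ∈ stab₂ a b ↔ g • a = a ∧ g • b = b := by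
  simp [stab₂]

theorem card_fix_conj (g u : G) :
    Nat.card {x : Ω // (g * u * g⁻¹) • x = x} = Nat.card {x : Ω // u • x = x} := by
  refine Nat.card_congr ((MulAction.toPerm g).subtypeEquiv fun x => ?_).symm
  simp [mul_smul]

theorem fix_mono {g h : G} (hfin : Finite Ω) (hle : ∀ x : Ω, g • x = x → h • x = x)
    (hcard : Nat.card {x : Ω // g • x = x} = Nat.card {x : Ω // h • x = x}) (x : Ω)
    (hx : h • x = x) : g • x = x := by
  have : {x : Ω | g • x = x} = {x : Ω | h • x = x} :=
    Set.eq_of_subset_of_ncard_le hle (by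
      rw [← Nat.card_coe_set_eq, ← Nat.card_coe_set_eq]; exact hcard.ge) (Set.toFinite _)
  exact (Set.ext_iff.1 this x).2 hx

variable [Finite G] [Fintype Ω] {t : G} {i : ℕ}

namespace Hyp

variable (h : Hyp (Ω := Ω) t i)
include h

theorem eq_one {g : G} (hg : ∀ x : Ω, g • x = x) : g = 1 := by
  haveI := h.faithful
  exact eq_of_smul_eq_smul (α := Ω) fun x => by rw [hg, one_smul]

theorem orderOf_conj {u : G} (hu : IsConj t u) : orderOf u = 2 := by
  obtain ⟨g, rfl⟩ := isConj_iff.1 hu
  rw [← MulAut.conj_apply, MulEquiv.orderOf_eq, h.order]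

theorem sq_conj {u : G} (hu : IsConj t u) : u * u = 1 := by
  have := pow_orderOf_eq_one u
  rwa [h.orderOf_conj hu, pow_two] at this

theorem inv_conj {u : G} (hu : IsConj t u) : u⁻¹ = u := inv_eq_of_mul_eq_one_right (h.sq_conj hu)

theorem fix_conj {u : G} (hu : IsConj t u) : Nat.card {x : Ω // u • x = x} = i := by
  obtain ⟨g, rfl⟩ := isConj_iff.1 hu
  rw [card_fix_conj]
  exact h.fix

theorem const_conj {u g : G} (hu : IsConj t u) (hc : Commute g u) (hg : g ≠ 1) :
    Nat.card {x : Ω // g • x = x} = i := by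
  obtain ⟨k, rfl⟩ := isConj_iff.1 hu
  rw [← card_fix_conj k⁻¹]
  refine h.const _ ?_ ?_
  · have := hc.map (MulAut.conj k⁻¹).toMonoidHom
    simpa [mul_assoc] using this
  · intro e
    apply hg
    simpa [mul_assoc] using congrArg (fun x => k * x * k⁻¹) e

theorem exists_moved : ∃ x : Ω, t • x ≠ x := by
  by_contra hne
  push Not at hne
  have := h.order
  rw [h.eq_one hne, orderOf_one] at this
  omega

theorem fix_lt : i < Fintype.card Ω := by
  classical
  obtain ⟨x, hx⟩ := h.exists_moved
  rw [← h.fix, Nat.card_eq_fintype_card]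
  exact Fintype.card_subtype_lt hx

theorem two_le : 2 ≤ Fintype.card Ω := by
  obtain ⟨x, hx⟩ := h.exists_moved
  exact Fintype.one_lt_card_iff.2 ⟨_, _, hx⟩

/-- The centraliser order divides, hence is at most, the number of moved points. -/
theorem card_centralizer_le :
    Nat.card (Subgroup.centralizer ({t} : Set G)) ≤ Fintype.card Ω - i := by
  classical
  set C := Subgroup.centralizer ({t} : Set G) with hC
  letI := Fintype.ofFinite C
  letI : ∀ g : C, Fintype (fixedBy Ω g) := fun g => Fintype.ofFinite _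
  letI : Fintype (orbitRel.Quotient C Ω) := Fintype.ofFinite _
  have hb := sum_card_fixedBy_eq_card_orbits_mul_card_group C Ω
  rw [← Finset.add_sum_erase _ _ (Finset.mem_univ (1 : C))] at hb
  have h1 : Fintype.card (fixedBy Ω (1 : C)) = Fintype.card Ω :=
    Fintype.card_congr (Equiv.subtypeUnivEquiv fun x => by simp)
  have h2 : ∀ g ∈ Finset.univ.erase (1 : C), Fintype.card (fixedBy Ω g) = i := by
    intro g hg
    rw [← Nat.card_eq_fintype_card]
    refine h.const (g : G) (Subgroup.mem_centralizer_singleton_iff.1 g.2) fun e => ?_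
    exact (Finset.mem_erase.1 hg).1 (Subtype.ext e)
  rw [h1, Finset.sum_congr rfl h2, Finset.sum_const, Finset.card_erase_of_mem (Finset.mem_univ _),
    Finset.card_univ, smul_eq_mul] at hb
  rw [Nat.card_eq_fintype_card]
  have hlt := h.fix_lt
  have hpos : 0 < Fintype.card C := Fintype.card_pos
  refine Nat.le_of_dvd (by omega) ?_
  have e : Fintype.card Ω - i + i * Fintype.card C =
      Fintype.card (orbitRel.Quotient C Ω) * Fintype.card C := by
    rw [← hb, Nat.sub_mul, one_mul, mul_comm i]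
    have : i ≤ Fintype.card C * i := Nat.le_mul_of_pos_left _ hpos
    omega
  have := (Nat.dvd_add_left (Dvd.intro_left i rfl)).1 (e ▸ Dvd.intro_left _ rfl)
  exact this

theorem card_group {a b : Ω} (hab : a ≠ b) :
    Nat.card G = (Fintype.card Ω * (Fintype.card Ω - 1)) * Nat.card (stab₂ (G := G) a b) := by
  classical
  rw [← Nat.card_congr (orbitProdStabilizerEquivGroup G (a, b)), Nat.card_prod]
  have ho : orbit G (a, b) = {p : Ω × Ω | p.1 ≠ p.2} := by
    ext ⟨x, y⟩
    constructor
    · rintro ⟨g, hg⟩ e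
      simp only [Prod.smul_mk, Prod.mk.injEq] at hg
      exact hab (smul_left_cancel g (hg.1.trans (e.trans hg.2.symm)))
    · intro hxy
      obtain ⟨g, h1, h2⟩ := h.two a b x y hab hxy
      exact ⟨g, by simp [h1, h2]⟩
  have hs : stabilizer G (a, b) = stab₂ a b := by
    ext g
    simp [Prod.ext_iff]
  have hp : Nat.card {p : Ω × Ω // p.1 ≠ p.2} = Fintype.card Ω * (Fintype.card Ω - 1) := by
    rw [Nat.card_eq_fintype_card, Fintype.card_subtype]
    have : (Finset.univ.filter fun p : Ω × Ω => p.1 ≠ p.2) = (Finset.univ : Finset Ω).offDiag := by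
      ext p; simp
    rw [this, Finset.offDiag_card, Finset.card_univ, Nat.mul_sub, mul_one]
  rw [Nat.card_congr (Equiv.setCongr ho), hs]
  exact congrArg₂ (· * ·) hp rfl

theorem card_stab₂ {a b x y : Ω} (hab : a ≠ b) (hxy : x ≠ y) :
    Nat.card (stab₂ (G := G) x y) = Nat.card (stab₂ (G := G) a b) := by
  have h2 := h.two_le
  have e := (h.card_group hxy).symm.trans (h.card_group hab)
  exact Nat.eq_of_mul_eq_mul_left (Nat.mul_pos (by omega) (by omega)) e

theorem card_class :
    Nat.card {u : G // IsConj t u} * Nat.card (Subgroup.centralizer ({t} : Set G)) = Nat.card G := by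
  classical
  letI := Fintype.ofFinite G
  have key : ∀ u : {u : G // IsConj t u},
      Nat.card {g : G // g * t * g⁻¹ = u.1} = Nat.card (Subgroup.centralizer ({t} : Set G)) := by
    intro u
    obtain ⟨k, hk⟩ := isConj_iff.1 u.2
    refine Nat.card_congr ((Equiv.mulLeft k⁻¹).subtypeEquiv fun g => ?_)
    rw [Subgroup.mem_centralizer_singleton_iff, Equiv.coe_mulLeft, ← hk]
    constructor
    · intro e
      calc k⁻¹ * g * t = k⁻¹ * (g * t * g⁻¹) * g := by group
        _ = t * (k⁻¹ * g) := by rw [e]; group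
    · intro e
      calc g * t * g⁻¹ = k * (k⁻¹ * g * t) * g⁻¹ := by group
        _ = k * t * k⁻¹ := by rw [e]; group
  let f : G → {u : G // IsConj t u} := fun g => ⟨g * t * g⁻¹, isConj_iff.2 ⟨g, rfl⟩⟩
  rw [← Nat.card_congr (Equiv.sigmaFiberEquiv f), Nat.card_sigma]
  have : ∀ u, Nat.card {g : G // f g = u} = Nat.card (Subgroup.centralizer ({t} : Set G)) := by
    intro u
    rw [← key u]
    exact Nat.card_congr (Equiv.subtypeEquivRight fun g => by simp [f, Subtype.ext_iff])
  rw [Finset.sum_congr rfl (fun u _ => this u), Finset.sum_const, Finset.card_univ, smul_eq_mul,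
    Nat.card_eq_fintype_card (α := {u : G // IsConj t u})]

theorem smul_smul_conj {u : G} (hu : IsConj t u) {x y : Ω} (hxy : u • x = y) : u • y = x := by
  rw [← hxy, ← mul_smul, h.sq_conj hu, one_smul]

/-- The count of swapped pairs: equality everywhere. -/
theorem swap_count :
    Nat.card (Subgroup.centralizer ({t} : Set G)) = Fintype.card Ω - i ∧
      ∀ a b : Ω, a ≠ b → Nat.card (stab₂ (G := G) a b) ≤ Nat.card {u : G // IsConj t u ∧ u • a = b} := by
  classical
  letI := Fintype.ofFinite G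
  obtain ⟨a, b, hab⟩ := Fintype.exists_pair_of_one_lt_card h.two_le
  set d := Nat.card (stab₂ (G := G) a b) with hd
  set c := Nat.card (Subgroup.centralizer ({t} : Set G)) with hc
  set n := Fintype.card Ω with hn
  have hfib : ∀ p : {p : Ω × Ω // p.1 ≠ p.2},
      Nat.card {u : G // IsConj t u ∧ u • p.1.1 = p.1.2} ≤ d := by
    intro p
    rw [hd, ← h.card_stab₂ hab p.2]
    rcases isEmpty_or_nonempty {u : G // IsConj t u ∧ u • p.1.1 = p.1.2} with he | ⟨⟨u₀, hu₀, hu₀x⟩⟩
    · rw [Nat.card_of_isEmpty]; exact Nat.zero_le _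
    refine Nat.card_le_card_of_injective
      (fun u => (⟨u₀ * u.1, mem_stab₂.2 ⟨?_, ?_⟩⟩ : stab₂ (G := G) p.1.1 p.1.2)) ?_
    · rw [mul_smul, u.2.2, h.smul_smul_conj hu₀ hu₀x]
    · rw [mul_smul, h.smul_smul_conj u.2.1 u.2.2, hu₀x]
    · intro u v e
      exact Subtype.ext (mul_left_cancel (congrArg Subtype.val e))
  let T := {u : G // IsConj t u}
  let P := {p : Ω × Ω // p.1 ≠ p.2}
  have etot : (Σ u : T, {x : Ω // u.1 • x ≠ x}) ≃ Σ p : P, {u : G // IsConj t u ∧ u • p.1.1 = p.1.2} :=
    { toFun := fun q => ⟨⟨(q.2.1, q.1.1 • q.2.1), fun e => q.2.2 e.symm⟩, ⟨q.1.1, q.1.2, rfl⟩⟩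
      invFun := fun q => ⟨⟨q.2.1, q.2.2.1⟩, ⟨q.1.1.1, by rw [q.2.2.2]; exact Ne.symm q.1.2⟩⟩
      left_inv := fun q => rfl
      right_inv := by
        rintro ⟨⟨⟨x, y⟩, hp⟩, ⟨u, hu, hux⟩⟩
        obtain rfl : y = u • x := hux.symm
        rfl }
  have htot := Nat.card_congr etot
  rw [Nat.card_sigma, Nat.card_sigma] at htot
  have hmov : ∀ u : T, Nat.card {x : Ω // u.1 • x ≠ x} = n - i := by
    intro u
    have := h.fix_conj u.2
    rw [Nat.card_eq_fintype_card] at this ⊢
    rw [Fintype.card_subtype_compl, this]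
  have hP : Fintype.card P = n * (n - 1) := by
    rw [Fintype.card_subtype]
    have : (Finset.univ.filter fun p : Ω × Ω => p.1 ≠ p.2) = (Finset.univ : Finset Ω).offDiag := by
      ext p; simp
    rw [this, Finset.offDiag_card, Finset.card_univ, Nat.mul_sub, mul_one]
  have hle : (∑ p : P, Nat.card {u : G // IsConj t u ∧ u • p.1.1 = p.1.2}) ≤ n * (n - 1) * d := by
    refine (Finset.sum_le_card_nsmul _ _ d fun p _ => hfib p).trans ?_
    rw [Finset.card_univ, hP, smul_eq_mul]
  have hcl := h.card_class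
  rw [h.card_group hab, ← hc, ← hn, ← hd] at hcl
  have hge := h.card_centralizer_le
  rw [← hc, ← hn] at hge
  have hT : Fintype.card T = Nat.card {u : G // IsConj t u} := Nat.card_eq_fintype_card.symm
  rw [Finset.sum_congr rfl (fun u _ => hmov u), Finset.sum_const, Finset.card_univ, smul_eq_mul,
    hT] at htot
  have hTpos : 0 < Nat.card {u : G // IsConj t u} :=
    Nat.card_pos_iff.2 ⟨⟨⟨t, IsConj.refl t⟩⟩, inferInstance⟩
  have heq : c = n - i := by
    refine le_antisymm hge (Nat.le_of_mul_le_mul_left ?_ hTpos)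
    calc _ = _ := htot
      _ ≤ n * (n - 1) * d := hle
      _ = _ := hcl.symm
  refine ⟨heq, fun x y hxy => ?_⟩
  rw [h.card_stab₂ hab hxy, ← hd]
  by_contra hlt
  have hlt' := Finset.sum_lt_sum (s := (Finset.univ : Finset P)) (f := fun p =>
    Nat.card {u : G // IsConj t u ∧ u • p.1.1 = p.1.2}) (g := fun _ => d) (fun p _ => hfib p)
    ⟨⟨(x, y), hxy⟩, Finset.mem_univ _, by simpa using hlt⟩
  rw [Finset.sum_const, Finset.card_univ, hP, smul_eq_mul, ← htot, ← hcl, heq] at hlt'
  omega

theorem card_centralizer :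
    Nat.card (Subgroup.centralizer ({t} : Set G)) = Fintype.card Ω - i := h.swap_count.1

/-- Every element interchanging two points is conjugate to `t`. -/
theorem isConj_of_swap {a b : Ω} (hab : a ≠ b) {g : G} (hga : g • a = b) (hgb : g • b = a) :
    IsConj t g := by
  classical
  letI := Fintype.ofFinite G
  let φ : {u : G // IsConj t u ∧ u • a = b} → stab₂ (G := G) a b := fun u =>
    ⟨g * u.1, mem_stab₂.2 ⟨by rw [mul_smul, u.2.2, hgb],
      by rw [mul_smul, h.smul_smul_conj u.2.1 u.2.2, hga]⟩⟩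
  have hinj : Function.Injective φ := fun u v e =>
    Subtype.ext (mul_left_cancel (congrArg Subtype.val e))
  have hsurj : Function.Surjective φ :=
    (hinj.bijective_of_nat_card_le (h.swap_count.2 a b hab)).2
  obtain ⟨u, hu⟩ := hsurj 1
  have e : g * u.1 = 1 := congrArg Subtype.val hu
  have : g = u.1⁻¹ := eq_inv_of_mul_eq_one_left e
  rw [h.inv_conj u.2.1] at this
  rw [this]
  exact u.2.1

theorem exists_swap {a b : Ω} (hab : a ≠ b) : ∃ s : G, IsConj t s ∧ s • a = b ∧ s • b = a := by
  obtain ⟨g, h1, h2⟩ := h.two a b b a hab hab.symm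
  exact ⟨g, h.isConj_of_swap hab h1 h2, h1, h2⟩

theorem swap_inverts {a b : Ω} (hab : a ≠ b) {s k : G} (hsa : s • a = b) (hsb : s • b = a)
    (hk : k ∈ stab₂ a b) : s * k * s⁻¹ = k⁻¹ := by
  obtain ⟨h1, h2⟩ := mem_stab₂.1 hk
  have e := h.sq_conj (h.isConj_of_swap (g := s * k) hab (by rw [mul_smul, h1, hsa])
    (by rw [mul_smul, h2, hsb]))
  have hs := h.inv_conj (h.isConj_of_swap hab hsa hsb)
  rw [hs]
  exact eq_inv_of_mul_eq_one_left (by rw [← e]; group)

theorem comm_stab₂ {a b : Ω} (hab : a ≠ b) {x y : G} (hx : x ∈ stab₂ a b) (hy : y ∈ stab₂ a b) :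
    Commute x y := by
  obtain ⟨s, -, hsa, hsb⟩ := h.exists_swap hab
  have e : s * (x * y) * s⁻¹ = (s * x * s⁻¹) * (s * y * s⁻¹) := by group
  rw [h.swap_inverts hab hsa hsb (mul_mem hx hy), h.swap_inverts hab hsa hsb hx,
    h.swap_inverts hab hsa hsb hy, mul_inv_rev] at e
  exact ((show Commute y⁻¹ x⁻¹ from e).symm).inv_inv |> fun z => by simpa using z

end Hyp

end CfsgLib.ConstFix
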