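import Cfsg.Agent.Lib.ConstFix.Basic

/-!
# Constant fixity: at most two fixed points

With at least three fixed points the centraliser of `t` becomes a self-centralising elementary abelian
Sylow 2-subgroup all of whose involutions are conjugate, which contradicts the order formula.
-/

set_option autoImplicit false
set_option linter.unusedSectionVars false
set_option linter.style.haveILetI false

namespace CfsgLib.ConstFix

open MulAction

variable {G Ω : Type*} [Group G] [MulAction G Ω]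

/-- A subgroup containing every element of odd order has 2-power index. -/
theorem eq_two_of_dvd_index [Finite G] (H : Subgroup G) (hH : ∀ g : G, Odd (orderOf g) → g ∈ H)
    {p : ℕ} (hp : p.Prime) (hd : p ∣ H.index) : p = 2 := by
  by_contra hne
  haveI := Fact.mk hp
  obtain ⟨P⟩ : Nonempty (Sylow p G) := inferInstance
  have hle : (P : Subgroup G) ≤ H := by
    intro x hx
    obtain ⟨k, hk⟩ := P.2 ⟨x, hx⟩
    have hk' : x ^ p ^ k = 1 := congrArg Subtype.val hk
    exact hH x ((hp.odd_of_ne_two hne).pow.of_dvd_nat (orderOf_dvd_of_pow_eq_one hk'))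
  exact P.not_dvd_index (hd.trans (Subgroup.index_dvd_of_le hle))

variable [Finite G] [Fintype Ω] {t : G} {i : ℕ}

namespace Hyp

variable (h : Hyp (Ω := Ω) t i)
include h

theorem two_le_of_fixes {u : G} (hu : IsConj t u) {a b : Ω} (hab : a ≠ b) (ha : u • a = a)
    (hb : u • b = b) : 2 ≤ i := by
  classical
  rw [← h.fix_conj hu, Nat.card_eq_fintype_card]
  exact Fintype.one_lt_card_iff.2 ⟨⟨a, ha⟩, ⟨b, hb⟩, fun e => hab (congrArg Subtype.val e)⟩

/-- An element commuting with a conjugate `u` of `t` and fixing two fixed points of `u`. -/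
theorem stab₂_le_centralizer {u : G} (hu : IsConj t u) {a b : Ω} (hab : a ≠ b) (ha : u • a = a)
    (hb : u • b = b) {k : G} (hk : k ∈ stab₂ a b) : Commute k u :=
  h.comm_stab₂ hab hk (mem_stab₂.2 ⟨ha, hb⟩)

theorem fixes_of_odd {g : G} (hgt : Commute g t) (hodd : Odd (orderOf g)) {x : Ω} (hx : t • x = x) :
    g • x = x := by
  rcases eq_or_ne g 1 with rfl | hg
  · exact one_smul G x
  have hm : (g * t) ^ orderOf g = t := by
    rw [hgt.mul_pow, pow_orderOf_eq_one, one_mul]
    obtain ⟨k, hk⟩ := hodd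
    rw [hk, pow_add, pow_mul, pow_one]
    have := h.sq_conj (IsConj.refl t)
    rw [pow_two, this, one_pow, one_mul]
  have hgt1 : g * t ≠ 1 := by
    intro e
    rw [e, one_pow] at hm
    have := h.order
    rw [← hm, orderOf_one] at this
    omega
  have hcomm : Commute (g * t) t := hgt.mul_left (Commute.refl t)
  have hsub : ∀ y : Ω, (g * t) • y = y → t • y = y := by
    intro y hy
    have : (g * t) ^ orderOf g • y = y := by
      have hs : g * t ∈ stabilizer G y := hy
      exact pow_mem hs _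
    rwa [hm] at this
  have e := fix_mono inferInstance hsub (by rw [h.const _ hcomm hgt1, h.fix]) x hx
  rwa [mul_smul, hx] at e

/-- For two fixed points the two-point stabiliser fixes nothing else. -/
theorem fixes_eq_of_two (hi : i = 2) {a b : Ω} (hab : a ≠ b) {k : G} (hk : k ∈ stab₂ a b) (hk1 : k ≠ 1)
    {c : Ω} (hc : k • c = c) : c = a ∨ c = b := by
  classical
  obtain ⟨p, q, hpq, hp, hq⟩ : ∃ p q : Ω, p ≠ q ∧ t • p = p ∧ t • q = q := by
    have := h.fix
    rw [hi, Nat.card_eq_fintype_card] at this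
    obtain ⟨⟨p, hp⟩, ⟨q, hq⟩, hne⟩ := Fintype.exists_pair_of_one_lt_card
      (by omega : 1 < Fintype.card {x : Ω // t • x = x})
    exact ⟨p, q, fun e => hne (Subtype.ext e), hp, hq⟩
  obtain ⟨g, hga, hgb⟩ := h.two p q a b hpq hab
  have hu : IsConj t (g * t * g⁻¹) := isConj_iff.2 ⟨g, rfl⟩
  have hua : (g * t * g⁻¹) • a = a := by rw [← hga, mul_smul, mul_smul, inv_smul_smul, hp]
  have hub : (g * t * g⁻¹) • b = b := by rw [← hgb, mul_smul, mul_smul, inv_smul_smul, hq]
  have hcard := h.const_conj hu (h.stab₂_le_centralizer hu hab hua hub hk) hk1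
  by_contra hne
  push Not at hne
  obtain ⟨hka, hkb⟩ := mem_stab₂.1 hk
  have h3 : ({a, b, c} : Set Ω).ncard ≤ {x : Ω | k • x = x}.ncard :=
    Set.ncard_le_ncard (by
      intro x hx
      rcases hx with rfl | rfl | rfl <;> assumption) (Set.toFinite _)
  rw [Set.ncard_insert_of_notMem (by simp [hab, hne.1.symm]), Set.ncard_pair (Ne.symm hne.2),
    ← Nat.card_coe_set_eq] at h3
  have : Nat.card {x : Ω | k • x = x} = 2 := by rw [← hi]; exact hcard
  omega

theorem two_mul_le (hi : i = 2) {a b : Ω} (hab : a ≠ b) :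
    Even (Nat.card (stab₂ (G := G) a b)) ∧
      2 * Nat.card (stab₂ (G := G) a b) ≤ Fintype.card Ω - 2 := by
  classical
  obtain ⟨p, q, hpq, hp, hq⟩ : ∃ p q : Ω, p ≠ q ∧ t • p = p ∧ t • q = q := by
    have := h.fix
    rw [hi, Nat.card_eq_fintype_card] at this
    obtain ⟨⟨p, hp⟩, ⟨q, hq⟩, hne⟩ := Fintype.exists_pair_of_one_lt_card
      (by omega : 1 < Fintype.card {x : Ω // t • x = x})
    exact ⟨p, q, fun e => hne (Subtype.ext e), hp, hq⟩
  rw [h.card_stab₂ hpq hab]
  set D := stab₂ (G := G) p q with hD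
  have htD : t ∈ D := mem_stab₂.2 ⟨hp, hq⟩
  constructor
  · rw [even_iff_two_dvd, ← h.order, ← Subgroup.orderOf_mk t htD]
    exact orderOf_dvd_natCard _
  obtain ⟨s, -, hsp, hsq⟩ := h.exists_swap hpq
  set C := Subgroup.centralizer ({t} : Set G) with hC
  have hDC : D ≤ C := fun k hk => Subgroup.mem_centralizer_singleton_iff.2
    (h.stab₂_le_centralizer (IsConj.refl t) hpq hp hq hk).eq
  have hsC : s ∈ C := by
    have e := h.swap_inverts hpq hsp hsq htD
    rw [h.inv_conj (IsConj.refl t)] at e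
    exact Subgroup.mem_centralizer_singleton_iff.2 (mul_inv_eq_iff_eq_mul.1 e)
  have hlt : D < C := lt_of_le_of_ne hDC fun e => by
    rw [← e] at hsC
    exact hpq (((mem_stab₂.1 hsC).1.symm.trans hsp))
  have hdvd := Subgroup.card_dvd_of_le hDC
  have hne : Nat.card D ≠ Nat.card C := fun e => hlt.ne (Subgroup.eq_of_le_of_card_ge hDC e.ge)
  have hCc := h.card_centralizer
  rw [← hC] at hCc
  rw [← hi, ← hCc]
  obtain ⟨k, hk⟩ := hdvd
  have hpos : 0 < Nat.card C := Nat.card_pos
  rw [hk] at hne hpos ⊢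
  have h1 : k ≠ 1 := fun e => hne (by rw [e, mul_one])
  have h0 : k ≠ 0 := fun e => by simp [e] at hpos
  rw [mul_comm i]
  exact Nat.mul_le_mul_left _ (by omega)

/-- An involution never fixes three points. -/
theorem le_two : i ≤ 2 := by
  classical
  by_contra hlt
  push Not at hlt
  set C := Subgroup.centralizer ({t} : Set G) with hC
  have htt : IsConj t t := IsConj.refl t
  have hmemC : ∀ {g : G}, g ∈ C → Commute g t := fun hg => Subgroup.mem_centralizer_singleton_iff.1 hg
  have memC : ∀ {g : G}, Commute g t → g ∈ C := fun hg => Subgroup.mem_centralizer_singleton_iff.2 hg.eq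
  have hF : {x : Ω | t • x = x}.ncard = i := h.fix
  have hswapC : ∀ {x y : Ω}, x ≠ y → t • x = x → t • y = y →
      ∃ s ∈ C, s • x = y ∧ s • y = x := by
    intro x y hxy hx hy
    obtain ⟨s, -, hsx, hsy⟩ := h.exists_swap hxy
    have e := h.swap_inverts hxy hsx hsy (mem_stab₂.2 ⟨hx, hy⟩)
    rw [h.inv_conj htt] at e
    exact ⟨s, Subgroup.mem_centralizer_singleton_iff.2 (mul_inv_eq_iff_eq_mul.1 e), hsx, hsy⟩
  have hCF : ∀ {g : G}, g ∈ C → ∀ x : Ω, t • x = x → t • (g • x) = g • x := by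
    intro g hg x hx
    rw [← mul_smul, ← (hmemC hg).eq, mul_smul, hx]
  obtain ⟨a, ha⟩ : ∃ a : Ω, t • a = a := by
    have : 0 < {x : Ω | t • x = x}.ncard := by omega
    exact (Set.ncard_pos (Set.toFinite _)).1 this
  -- orbit of `a`
  have horb : (orbit C a) = {x : Ω | t • x = x} := by
    ext x
    constructor
    · rintro ⟨g, rfl⟩
      exact hCF g.2 a ha
    · intro hx
      rcases eq_or_ne a x with rfl | hax
      · exact mem_orbit_self a
      obtain ⟨s, hs, hsa, -⟩ := hswapC hax ha hx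
      exact ⟨⟨s, hs⟩, hsa⟩
  have hodd : ∀ g : C, Odd (orderOf g) → ∀ x : Ω, t • x = x → (g : G) • x = x := fun g hg x hx =>
    h.fixes_of_odd (hmemC g.2) (by rwa [Subgroup.orderOf_coe]) hx
  have hindex : (stabilizer C a).index = i := by
    rw [index_stabilizer, horb, hF]
  have hi2 : 2 ∣ i := by
    obtain ⟨p, hp, hpd⟩ := Nat.exists_prime_and_dvd (show i ≠ 1 by omega)
    have := eq_two_of_dvd_index (stabilizer C a) (fun g hg => hodd g hg a ha) hp (hindex ▸ hpd)
    exact this ▸ hpd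
  -- some point whose stabiliser is all of `stabilizer C a`
  obtain ⟨z, hz, hza, hzall⟩ : ∃ z : Ω, t • z = z ∧ z ≠ a ∧
      ∀ g ∈ C, g • a = a → g • z = z := by
    haveI : Fact (Nat.Prime 2) := ⟨Nat.prime_two⟩
    obtain ⟨P⟩ : Nonempty (Sylow 2 (stabilizer C a)) := inferInstance
    let S : SubMulAction (P : Subgroup (stabilizer C a)) Ω :=
      { carrier := {x | t • x = x ∧ x ≠ a}
        smul_mem' := by
          intro g x hx
          refine ⟨hCF ((g : stabilizer C a) : C).2 x hx.1, fun e => hx.2 ?_⟩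
          have hga : (((g : stabilizer C a) : C) : G) • a = a := (g : stabilizer C a).2
          exact smul_left_cancel (((g : stabilizer C a) : C) : G) (e.trans hga.symm) }
    have hcard : Nat.card S = i - 1 := by
      show Nat.card ({x : Ω | t • x = x ∧ x ≠ a} : Set Ω) = i - 1
      rw [Nat.card_coe_set_eq, ← hF, ← Set.ncard_sdiff_singleton_of_mem (show a ∈ {x : Ω | t • x = x} from ha)]
      exact congrArg Set.ncard (by ext x; simp)
    have hmod := P.2.card_modEq_card_fixedPoints S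
    rw [hcard] at hmod
    obtain ⟨⟨⟨z, hz⟩, hzfix⟩⟩ : Nonempty (fixedPoints (P : Subgroup (stabilizer C a)) S) := by
      rw [← not_isEmpty_iff]
      intro he
      rw [Nat.card_of_isEmpty (α := fixedPoints (P : Subgroup (stabilizer C a)) S), Nat.ModEq] at hmod
      omega
    refine ⟨z, hz.1, hz.2, fun g hg hga => ?_⟩
    let K : Subgroup (stabilizer C a) :=
      (stabilizer G z).comap ((Subgroup.subtype C).comp (Subgroup.subtype (stabilizer C a)))
    have hPK : (P : Subgroup (stabilizer C a)) ≤ K := fun x hx =>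
      congrArg Subtype.val (hzfix ⟨x, hx⟩)
    have hK : K = ⊤ := by
      rw [← Subgroup.index_eq_one]
      by_contra hne
      obtain ⟨p, hp, hpd⟩ := Nat.exists_prime_and_dvd hne
      have := eq_two_of_dvd_index K (fun x hx => hodd x (by rwa [Subgroup.orderOf_coe]) z hz.1) hp hpd
      subst this
      exact P.not_dvd_index (hpd.trans (Subgroup.index_dvd_of_le hPK))
    have : (⟨⟨g, hg⟩, hga⟩ : stabilizer C a) ∈ K := hK ▸ Subgroup.mem_top _
    exact this
  set D := stab₂ (G := G) a z with hD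
  have hDC : D ≤ C := fun k hk => memC (h.stab₂_le_centralizer htt hza.symm ha hz hk)
  have hDeq : ∀ g : G, g ∈ D ↔ g ∈ C ∧ g • a = a := fun g =>
    ⟨fun hg => ⟨hDC hg, (mem_stab₂.1 hg).1⟩, fun hg => mem_stab₂.2 ⟨hg.2, hzall g hg.1 hg.2⟩⟩
  have hDfix : ∀ k ∈ D, ∀ x : Ω, t • x = x → k • x = x := by
    intro k hk x hx
    rcases eq_or_ne x a with rfl | hxa
    · exact (mem_stab₂.1 hk).1
    have e : stab₂ (G := G) a x = D := by
      refine Subgroup.eq_of_le_of_card_ge (fun g hg => ?_) ?_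
      · exact (hDeq g).2 ⟨memC (h.stab₂_le_centralizer htt hxa.symm ha hx hg), (mem_stab₂.1 hg).1⟩
      · rw [hD, h.card_stab₂ hza.symm hxa.symm]
    rw [← e] at hk
    exact (mem_stab₂.1 hk).2
  -- every element outside `D` is a swap
  have hout : ∀ g ∈ C, g • a ≠ a → IsConj t g ∧ g • (g • a) = a := by
    intro g hg hga
    have hgF := hCF hg a ha
    obtain ⟨s, hs, hsa, hsb⟩ := hswapC (Ne.symm hga) ha hgF
    have hk : s⁻¹ * g ∈ D := (hDeq _).2 ⟨mul_mem (inv_mem hs) hg, by
      rw [mul_smul, inv_smul_eq_iff, hsa]⟩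
    have : g • (g • a) = a := by
      calc g • (g • a) = s • ((s⁻¹ * g) • (g • a)) := by rw [mul_smul, smul_inv_smul]
        _ = a := by rw [hDfix _ hk _ hgF, hsb]
    exact ⟨h.isConj_of_swap (Ne.symm hga) rfl this, this⟩
  have hinv : ∀ g ∈ C, g • a ≠ a → ∀ k ∈ D, g * k * g⁻¹ = k⁻¹ := fun g hg hga k hk =>
    h.swap_inverts (Ne.symm hga) rfl (hout g hg hga).2
      (mem_stab₂.2 ⟨(mem_stab₂.1 hk).1, hDfix k hk _ (hCF hg a ha)⟩)
  -- exponent two
  obtain ⟨s₁, hs₁, hs₁a, hs₁z⟩ := hswapC hza.symm ha hz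
  obtain ⟨w, hw, hwa, hwz⟩ : ∃ w : Ω, t • w = w ∧ w ≠ a ∧ w ≠ z := by
    have hlt2 : ({a, z} : Set Ω).ncard < {x : Ω | t • x = x}.ncard := by
      rw [hF, Set.ncard_pair hza.symm]; omega
    obtain ⟨w, hw, hwn⟩ := Set.exists_mem_notMem_of_ncard_lt_ncard hlt2
    simp only [Set.mem_insert_iff, Set.mem_singleton_iff, not_or] at hwn
    exact ⟨w, hw, hwn.1, hwn.2⟩
  obtain ⟨s₂, hs₂, hs₂a, -⟩ := hswapC hwa.symm ha hw
  have hs12 : (s₁ * s₂) • a ≠ a := by
    intro e
    rw [mul_smul, hs₂a] at e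
    exact hwz (smul_left_cancel s₁ (e.trans hs₁z.symm))
  have hDsq : ∀ k ∈ D, k * k = 1 := by
    intro k hk
    have e1 := hinv _ (mul_mem hs₁ hs₂) hs12 k hk
    have e2 := hinv _ hs₁ (hs₁a ▸ hza) _ (inv_mem hk)
    have e3 := hinv _ hs₂ (hs₂a ▸ hwa) k hk
    have : (s₁ * s₂) * k * (s₁ * s₂)⁻¹ = s₁ * (s₂ * k * s₂⁻¹) * s₁⁻¹ := by group
    rw [e1, e3, e2, inv_inv] at this
    rw [← inv_eq_iff_mul_eq_one]
    exact this
  have hsq : ∀ g ∈ C, g * g = 1 := by
    intro g hg
    by_cases hga : g • a = a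
    · exact hDsq g ((hDeq g).2 ⟨hg, hga⟩)
    · exact h.sq_conj (hout g hg hga).1
  have hcomm : ∀ x ∈ C, ∀ y ∈ C, x * y = y * x := by
    intro x hx y hy
    have e := inv_eq_of_mul_eq_one_right (hsq _ (mul_mem hx hy))
    rw [mul_inv_rev, inv_eq_of_mul_eq_one_right (hsq x hx), inv_eq_of_mul_eq_one_right (hsq y hy)] at e
    exact e.symm
  -- orders
  have hstab : Nat.card (stabilizer C a) = Nat.card D :=
    Nat.card_congr
      { toFun := fun g => ⟨g.1.1, (hDeq _).2 ⟨g.1.2, g.2⟩⟩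
        invFun := fun g => ⟨⟨g.1, hDC g.2⟩, ((hDeq g.1).1 g.2).2⟩
        left_inv := fun g => rfl
        right_inv := fun g => rfl }
  have hc : Nat.card C = i * Nat.card D := by
    rw [← (stabilizer C a).index_mul_card, hindex, hstab]
  have hn : Fintype.card Ω = i + i * Nat.card D := by
    have := h.card_centralizer
    rw [← hC, hc] at this
    have := h.fix_lt
    omega
  have htD : t ∈ D := mem_stab₂.2 ⟨ha, hz⟩
  have hd2 : 2 ∣ Nat.card D := by
    rw [← h.order, ← Subgroup.orderOf_mk t htD]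
    exact orderOf_dvd_natCard _
  have hd0 : 0 < Nat.card D := Nat.card_pos
  set d := Nat.card D with hdd
  have hG : Nat.card G = Nat.card C * ((1 + d) * (Fintype.card Ω - 1)) := by
    rw [h.card_group hza.symm, ← hD, ← hdd, hc, hn]
    ring
  have hCindex : C.index = (1 + d) * (Fintype.card Ω - 1) := by
    have := C.card_mul_index
    rw [hG] at this
    exact Nat.eq_of_mul_eq_mul_left Nat.card_pos this
  haveI : Fact (Nat.Prime 2) := ⟨Nat.prime_two⟩
  have hC2 : IsPGroup 2 C := fun g => ⟨1, Subtype.ext (by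
    show (g : G) ^ 2 ^ 1 = 1
    rw [pow_one, pow_two, hsq g.1 g.2])⟩
  have hodd1 : ¬ 2 ∣ C.index := by
    rw [hCindex, Nat.prime_two.dvd_mul]
    obtain ⟨d', hd'⟩ := hd2
    obtain ⟨i', hi'⟩ := hi2
    rintro (h' | h')
    · omega
    · rw [hn, hi', mul_assoc] at h'
      omega
  let P : Sylow 2 G := hC2.toSylow hodd1
  have hP : (P : Subgroup G) = C := rfl
  haveI : IsMulCommutative (P : Subgroup G) :=
    ⟨⟨fun x y => Subtype.ext (hcomm x.1 (hP ▸ x.2) y.1 (hP ▸ y.2))⟩⟩
  -- all non-identity elements of `C` are conjugate to `t`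
  have hall : ∀ g ∈ C, g ≠ 1 → IsConj t g := by
    intro g hg hg1
    by_cases hga : g • a = a
    swap
    · exact (hout g hg hga).1
    have hgD := (hDeq g).2 ⟨hg, hga⟩
    have hu : IsConj t s₁ := (hout s₁ hs₁ (hs₁a ▸ hza)).1
    -- a fixed point of `s₁` moved by `g`
    obtain ⟨x, hx, hgx⟩ : ∃ x : Ω, s₁ • x = x ∧ g • x ≠ x := by
      by_contra hne
      push Not at hne
      have h1 : {x : Ω | s₁ • x = x} = {x : Ω | g • x = x} := Set.eq_of_subset_of_ncard_le hne (by
        rw [← Nat.card_coe_set_eq, ← Nat.card_coe_set_eq]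
        exact ((h.const g (hmemC hg) hg1).trans (h.fix_conj hu).symm).le) (Set.toFinite _)
      have := (Set.ext_iff.1 h1 a).2 hga
      exact hza (hs₁a.symm.trans this)
    have hgg : g • (g • x) = x := by rw [← mul_smul, hsq g hg, one_smul]
    exact h.isConj_of_swap (Ne.symm hgx) rfl hgg
  -- count the conjugates inside `C`
  have hfus : ∀ g ∈ C, g ≠ 1 → ∃ n ∈ Subgroup.normalizer (C : Set G), n * t * n⁻¹ = g := by
    intro g hg hg1
    obtain ⟨k, hk⟩ := isConj_iff.1 (hall g hg hg1)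
    have htC : t ∈ C := memC (Commute.refl t)
    obtain ⟨n, hn', e⟩ := Sylow.conj_eq_normalizer_conj_of_mem P t k⁻¹ htC
      (by rw [inv_inv, hk]; exact hg)
    exact ⟨n⁻¹, inv_mem hn', by rw [inv_inv, ← e, inv_inv, hk]⟩
  set N := Subgroup.normalizer (C : Set G) with hN
  letI := Fintype.ofFinite G
  let f : N → {g : C // g ≠ 1} := fun n =>
    ⟨⟨n.1 * t * n.1⁻¹, (Subgroup.mem_normalizer_iff.1 n.2 t).1 (memC (Commute.refl t))⟩, fun e => by
      have e' : n.1 * t * n.1⁻¹ = 1 := congrArg Subtype.val e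
      have := h.orderOf_conj (u := n.1 * t * n.1⁻¹) (isConj_iff.2 ⟨n.1, rfl⟩)
      rw [e', orderOf_one] at this
      omega⟩
  have hCN : C ≤ N := Subgroup.le_normalizer
  have hfib : ∀ g, Nat.card {n : N // f n = g} = Nat.card C := by
    intro g
    obtain ⟨n₀, hn₀, e₀⟩ := hfus g.1.1 g.1.2 (fun e => g.2 (Subtype.ext e))
    refine Nat.card_congr
      { toFun := fun n => ⟨n₀⁻¹ * n.1.1, memC ?_⟩
        invFun := fun k => ⟨⟨n₀ * k.1, mul_mem hn₀ (hCN k.2)⟩, Subtype.ext (Subtype.ext ?_)⟩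
        left_inv := fun n => Subtype.ext (Subtype.ext (mul_inv_cancel_left n₀ n.1.1))
        right_inv := fun k => Subtype.ext (inv_mul_cancel_left n₀ k.1) }
    · have en : n.1.1 * t * n.1.1⁻¹ = g.1.1 := congrArg (fun q => q.1.1) n.2
      rw [← e₀] at en
      calc n₀⁻¹ * n.1.1 * t = n₀⁻¹ * (n.1.1 * t * n.1.1⁻¹) * n.1.1 := by group
        _ = t * (n₀⁻¹ * n.1.1) := by rw [en]; group
    · show n₀ * k.1 * t * (n₀ * k.1)⁻¹ = g.1.1
      rw [← e₀]
      calc n₀ * k.1 * t * (n₀ * k.1)⁻¹ = n₀ * (k.1 * t * k.1⁻¹) * n₀⁻¹ := by group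
        _ = n₀ * t * n₀⁻¹ := by rw [(hmemC k.2).eq, mul_inv_cancel_right]
  have hNcard : Nat.card N = (Nat.card C - 1) * Nat.card C := by
    rw [← Nat.card_congr (Equiv.sigmaFiberEquiv f), Nat.card_sigma,
      Finset.sum_congr rfl (fun g _ => hfib g), Finset.sum_const, Finset.card_univ, smul_eq_mul]
    congr 1
    rw [Fintype.card_subtype_compl, Fintype.card_subtype_eq, Nat.card_eq_fintype_card]
  have hdvd : (Nat.card C - 1) ∣ (1 + d) * (Fintype.card Ω - 1) := by
    have := Subgroup.card_subgroup_dvd_card N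
    rw [hNcard, hG, mul_comm (Nat.card C - 1)] at this
    exact Nat.dvd_of_mul_dvd_mul_left Nat.card_pos this
  rw [hc, hn] at hdvd
  have hid : 6 ≤ i * d := by
    have : 2 ≤ d := Nat.le_of_dvd hd0 hd2
    calc 6 = 3 * 2 := rfl
      _ ≤ i * d := Nat.mul_le_mul hlt this
  have e : (1 + d) * (i + i * d - 1) = (1 + d) * i + (1 + d) * (i * d - 1) := by
    rw [← Nat.mul_add]
    congr 1
    omega
  rw [e, Nat.dvd_add_left (Dvd.intro_left _ rfl)] at hdvd
  have e2 : (1 + d) * i = (i * d - 1) + (i + 1) := by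
    have : (1 + d) * i = i + i * d := by ring
    omega
  rw [e2, Nat.dvd_add_right (dvd_refl _)] at hdvd
  have := Nat.le_of_dvd (by omega) hdvd
  have h2d : 2 ≤ d := Nat.le_of_dvd hd0 hd2
  have : i * 2 ≤ i * d := Nat.mul_le_mul_left i h2d
  omega

end Hyp

end CfsgLib.ConstFix
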