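import Cfsg.Agent.Lib.ConstFix.HighFix
import Cfsg.Agent.S0215
import Cfsg.Agent.S0205
import Cfsg.Agent.S0339
import Cfsg.Agent.S0680
import Cfsg.Agent.Lib.SuzukiIdent.Classification

/-!
# Constant fixity at most one: a Zassenhaus group or a regular normal subgroup
-/

set_option autoImplicit false
set_option linter.unusedSectionVars false
set_option linter.style.haveILetI false

namespace CfsgLib.ConstFix

open MulAction
open scoped commutatorElement

variable {G Ω : Type*} [Group G] [MulAction G Ω]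

/-- A regular normal subgroup. -/
def HasRegularNormal (G Ω : Type*) [Group G] [MulAction G Ω] : Prop :=
  ∃ R : Subgroup G, R.Normal ∧ (∀ x y : Ω, ∃ r ∈ R, r • x = y) ∧ ∀ x : Ω, ∀ r ∈ R, r • x = x → r = 1

variable [Finite G] [Fintype Ω] {t : G} {i : ℕ}

namespace Hyp

variable (h : Hyp (Ω := Ω) t i)
include h

theorem isMultiplyPretransitive : IsMultiplyPretransitive G Ω 2 :=
  is_two_pretransitive_iff.2 fun {a b c d} hab hcd => h.two a b c d hab hcd

/-- An element commuting with a conjugate of `t` and fixing two points is trivial. -/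
theorem eq_one_of_commute (hi : i ≤ 1) {u : G} (hu : IsConj t u) {k : G} (hku : Commute k u)
    {a b : Ω} (hab : a ≠ b) (ha : k • a = a) (hb : k • b = b) : k = 1 := by
  classical
  by_contra hk
  have := h.const_conj hu hku hk
  rw [Nat.card_eq_fintype_card] at this
  have h2 : 1 < Fintype.card {x : Ω // k • x = x} :=
    Fintype.one_lt_card_iff.2 ⟨⟨a, ha⟩, ⟨b, hb⟩, fun e => hab (congrArg Subtype.val e)⟩
  omega

theorem sq_ne_one (hi : i ≤ 1) {a b : Ω} (hab : a ≠ b) {k : G} (hk : k ∈ stab₂ a b) (hk1 : k ≠ 1) :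
    k * k ≠ 1 := by
  intro e
  obtain ⟨s, hs, hsa, hsb⟩ := h.exists_swap hab
  have e1 := h.swap_inverts hab hsa hsb hk
  rw [inv_eq_of_mul_eq_one_right e] at e1
  exact hk1 (h.eq_one_of_commute hi hs (mul_inv_eq_iff_eq_mul.1 e1).symm hab
    (mem_stab₂.1 hk).1 (mem_stab₂.1 hk).2)

theorem isConj_involution (hi : i ≤ 1) {v : G} (hv : orderOf v = 2) : IsConj t v := by
  have hv1 : v ≠ 1 := fun e => by simp [e] at hv
  obtain ⟨x, hx⟩ : ∃ x : Ω, v • x ≠ x := by
    by_contra hne
    push Not at hne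
    exact hv1 (h.eq_one hne)
  refine h.isConj_of_swap (Ne.symm hx) rfl ?_
  have := pow_orderOf_eq_one v
  rw [hv, pow_two] at this
  rw [← mul_smul, this, one_smul]

/-- A point of a fixed-point set with three points: an involution fixing it inverts. -/
theorem exists_inverting (hi : i ≤ 1) {a b c : Ω} (hab : a ≠ b) (hbc : b ≠ c) (hac : a ≠ c)
    {k : G} (hk1 : k ≠ 1) (ha : k • a = a) (hb : k • b = b) (hc : k • c = c) :
    ∃ z : G, IsConj t z ∧ z • a = a ∧ z * k * z⁻¹ = k⁻¹ := by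
  obtain ⟨u, -, hua, hub⟩ := h.exists_swap hab
  obtain ⟨v, -, hva, hvc⟩ := h.exists_swap hac
  obtain ⟨w, -, hwb, hwc⟩ := h.exists_swap hbc
  set g := v * w * u with hg
  have hga : g • a = a := by rw [hg, mul_smul, mul_smul, hua, hwb, hvc]
  have hginv : g * k * g⁻¹ = k⁻¹ := by
    have e1 := h.swap_inverts hab hua hub (mem_stab₂.2 ⟨ha, hb⟩)
    have e2 := h.swap_inverts hbc hwb hwc (inv_mem (mem_stab₂.2 ⟨hb, hc⟩))
    have e3 := h.swap_inverts hac hva hvc (mem_stab₂.2 ⟨ha, hc⟩)
    calc g * k * g⁻¹ = v * (w * (u * k * u⁻¹) * w⁻¹) * v⁻¹ := by rw [hg]; group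
      _ = k⁻¹ := by rw [e1, e2, inv_inv, e3]
  have hk2 : k * k ≠ 1 := h.sq_ne_one hi hab (mem_stab₂.2 ⟨ha, hb⟩) hk1
  have hne : k ≠ k⁻¹ := fun e => hk2 (by
    nth_rw 1 [e]
    exact inv_mul_cancel k)
  have hgpow : ∀ m : ℕ, g ^ (2 * m) * k * (g ^ (2 * m))⁻¹ = k := by
    intro m
    induction m with
    | zero => simp
    | succ m ih =>
      have e2 : g * k⁻¹ * g⁻¹ = k := by
        have := congrArg (·⁻¹) hginv
        simpa [mul_assoc] using this
      calc g ^ (2 * (m + 1)) * k * (g ^ (2 * (m + 1)))⁻¹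
          = g * (g * (g ^ (2 * m) * k * (g ^ (2 * m))⁻¹) * g⁻¹) * g⁻¹ := by
            rw [show 2 * (m + 1) = 1 + (1 + 2 * m) by ring, pow_add, pow_add, pow_one]; group
        _ = k := by rw [ih, hginv, e2]
  have hodd : ∀ m : ℕ, Odd m → g ^ m * k * (g ^ m)⁻¹ = k⁻¹ := by
    rintro m ⟨j, rfl⟩
    calc g ^ (2 * j + 1) * k * (g ^ (2 * j + 1))⁻¹
        = g * (g ^ (2 * j) * k * (g ^ (2 * j))⁻¹) * g⁻¹ := by rw [pow_succ']; group
      _ = k⁻¹ := by rw [hgpow, hginv]
  rcases Nat.even_or_odd (orderOf g) with he | ho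
  swap
  · have := hodd _ ho
    rw [pow_orderOf_eq_one, one_mul, inv_one, mul_one] at this
    exact absurd this hne
  obtain ⟨m, hm⟩ := he
  have hpos := orderOf_pos g
  have hz : orderOf (g ^ m) = 2 := by
    rw [orderOf_pow' g (by omega), Nat.gcd_eq_right ⟨2, by omega⟩]
    exact Nat.div_eq_of_eq_mul_left (by omega) (by omega)
  have hconj := h.isConj_involution hi hz
  have hza : g ^ m • a = a := by
    have hs : g ∈ stabilizer G a := hga
    exact pow_mem hs m
  refine ⟨g ^ m, hconj, hza, ?_⟩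
  rcases Nat.even_or_odd m with ⟨j, hj⟩ | hmo
  · exfalso
    have e := hgpow j
    rw [show 2 * j = m by omega] at e
    exact hk1 (h.eq_one_of_commute hi hconj (mul_inv_eq_iff_eq_mul.1 e).symm hab ha hb)
  · exact hodd m hmo

theorem false_of_zero (hi : i = 0) {a b c : Ω} (hab : a ≠ b) (hbc : b ≠ c) (hac : a ≠ c)
    {k : G} (hk1 : k ≠ 1) (ha : k • a = a) (hb : k • b = b) (hc : k • c = c) : False := by
  classical
  obtain ⟨z, hz, hza, -⟩ := h.exists_inverting (by omega) hab hbc hac hk1 ha hb hc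
  have := h.fix_conj hz
  rw [hi, Nat.card_eq_fintype_card] at this
  haveI hne : Nonempty {x : Ω // z • x = x} := ⟨⟨a, hza⟩⟩
  exact Fintype.card_ne_zero this

/-- An element with three fixed points forces a regular normal subgroup. -/
theorem hasRegularNormal_of_three (hi : i ≤ 1) {a b c : Ω} (hab : a ≠ b) (hbc : b ≠ c) (hac : a ≠ c)
    {k : G} (hk1 : k ≠ 1) (ha : k • a = a) (hb : k • b = b) (hc : k • c = c) :
    HasRegularNormal G Ω := by
  classical
  letI := Fintype.ofFinite G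
  have hi1 : i = 1 := by
    by_contra hne
    exact h.false_of_zero (by omega) hab hbc hac hk1 ha hb hc
  obtain ⟨u, hu, hua, huk⟩ := h.exists_inverting hi hab hbc hac hk1 ha hb hc
  set D := stab₂ (G := G) a b with hD
  set d := Nat.card D with hd
  -- exactly `d` conjugates of `t` fix `a`
  have hfibre : ∀ x : Ω,
      Nat.card {v : G // IsConj t v ∧ v • x = x} = Nat.card {v : G // IsConj t v ∧ v • a = a} := by
    intro x
    rcases eq_or_ne x a with rfl | hxa
    · rfl
    obtain ⟨g, hg, -⟩ := h.two x a a x hxa hxa.symm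
    refine Nat.card_congr ((MulAut.conj g).toEquiv.subtypeEquiv fun v => ?_)
    simp only [MulEquiv.toEquiv_eq_coe, EquivLike.coe_coe, MulAut.conj_apply]
    constructor
    · rintro ⟨h1, h2⟩
      refine ⟨h1.trans (isConj_iff.2 ⟨g, rfl⟩), ?_⟩
      rw [← hg, mul_smul, mul_smul, inv_smul_smul, h2]
    · rintro ⟨h1, h2⟩
      refine ⟨h1.trans (isConj_iff.2 ⟨g, rfl⟩).symm, ?_⟩
      rw [← hg, mul_smul, mul_smul, inv_smul_smul] at h2
      exact smul_left_cancel g h2
  have hcount : Nat.card {v : G // IsConj t v ∧ v • a = a} = d := by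
    have e : (Σ v : {v : G // IsConj t v}, {x : Ω // v.1 • x = x}) ≃
        Σ x : Ω, {v : G // IsConj t v ∧ v • x = x} :=
      { toFun := fun q => ⟨q.2.1, ⟨q.1.1, q.1.2, q.2.2⟩⟩
        invFun := fun q => ⟨⟨q.2.1, q.2.2.1⟩, ⟨q.1, q.2.2.2⟩⟩
        left_inv := fun q => rfl
        right_inv := fun q => rfl }
    have e' := Nat.card_congr e
    rw [Nat.card_sigma, Nat.card_sigma, Finset.sum_congr rfl (fun v _ => h.fix_conj v.2),
      Finset.sum_congr rfl (fun x _ => hfibre x), Finset.sum_const, Finset.sum_const, Finset.card_univ,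
      Finset.card_univ, smul_eq_mul, smul_eq_mul, hi1, mul_one, ← Nat.card_eq_fintype_card] at e'
    have hcl := h.card_class
    have hn := h.two_le
    rw [h.card_group hab, ← hD, ← hd, h.card_centralizer, hi1, e'] at hcl
    refine Nat.eq_of_mul_eq_mul_left (Nat.mul_pos (by omega : 0 < Fintype.card Ω)
      (by omega : 0 < Fintype.card Ω - 1)) ?_
    rw [← hcl]
    ring
  -- every conjugate of `t` fixing `a` inverts `k`
  have hkD : k ∈ D := mem_stab₂.2 ⟨ha, hb⟩
  let φ : D → {v : G // IsConj t v ∧ v • a = a} := fun x =>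
    ⟨x.1 * u * x.1⁻¹, hu.trans (isConj_iff.2 ⟨x.1, rfl⟩), by
      have hxa := (mem_stab₂.1 x.2).1
      rw [mul_smul, mul_smul, inv_smul_eq_iff.2 hxa.symm, hua, hxa]⟩
  have hinj : Function.Injective φ := by
    intro x y e
    have e' : x.1 * u * x.1⁻¹ = y.1 * u * y.1⁻¹ := congrArg Subtype.val e
    have hc' : Commute (y.1⁻¹ * x.1) u := by
      show y.1⁻¹ * x.1 * u = u * (y.1⁻¹ * x.1)
      calc y.1⁻¹ * x.1 * u = y.1⁻¹ * (x.1 * u * x.1⁻¹) * x.1 := by group
        _ = u * (y.1⁻¹ * x.1) := by rw [e']; group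
    obtain ⟨h1, h2⟩ := mem_stab₂.1 (mul_mem (inv_mem y.2) x.2)
    exact Subtype.ext (inv_mul_eq_one.1 (h.eq_one_of_commute hi hu hc' hab h1 h2)).symm
  have hsurj : Function.Surjective φ := (hinj.bijective_of_nat_card_le (le_of_eq hcount)).2
  have hall : ∀ v : G, IsConj t v → v • a = a → v * k * v⁻¹ = k⁻¹ := by
    intro v hv hva
    obtain ⟨x, hx⟩ := hsurj ⟨v, hv, hva⟩
    have e : x.1 * u * x.1⁻¹ = v := congrArg Subtype.val hx
    have hxk : x.1⁻¹ * k * x.1 = k := by
      rw [mul_assoc, (h.comm_stab₂ hab hkD x.2).eq, inv_mul_cancel_left]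
    have hxk' : x.1 * k⁻¹ * x.1⁻¹ = k⁻¹ := by
      rw [(h.comm_stab₂ hab x.2 (inv_mem hkD)).eq, mul_inv_cancel_right]
    calc v * k * v⁻¹ = x.1 * (u * (x.1⁻¹ * k * x.1) * u⁻¹) * x.1⁻¹ := by rw [← e]; group
      _ = k⁻¹ := by rw [hxk, huk, hxk']
  -- `u` is the only involution of its centraliser
  have hunique : ∀ v : G, orderOf v = 2 → Commute v u → v = u := by
    intro v hv hvu
    have hvc := h.isConj_involution hi hv
    have hva : v • a = a := by
      by_contra hne
      have h1 := h.fix_conj hu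
      rw [hi1, Nat.card_eq_fintype_card] at h1
      have h2 : 1 < Fintype.card {x : Ω // u • x = x} :=
        Fintype.one_lt_card_iff.2 ⟨⟨a, hua⟩, ⟨v • a, by rw [← mul_smul, ← hvu.eq, mul_smul, hua]⟩,
          fun e => hne (congrArg Subtype.val e).symm⟩
      omega
    by_contra hne
    have hcent : (v * u) * k * (v * u)⁻¹ = k := by
      have e2 : v * k⁻¹ * v⁻¹ = k := by
        have := congrArg (·⁻¹) (hall v hvc hva)
        simpa [mul_assoc] using this
      calc (v * u) * k * (v * u)⁻¹ = v * (u * k * u⁻¹) * v⁻¹ := by group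
        _ = k := by rw [huk, e2]
    have hsq : (v * u) * (v * u) = 1 := by
      calc (v * u) * (v * u) = (v * v) * (u * u) := hvu.symm.mul_mul_mul_comm v u
        _ = 1 := by rw [h.sq_conj hvc, h.sq_conj hu, one_mul]
    have hne1 : v * u ≠ 1 := fun e => hne (by
      rw [mul_eq_one_iff_eq_inv.1 e, h.inv_conj hu])
    have horder : orderOf (v * u) = 2 := orderOf_eq_prime (by rw [pow_two, hsq]) hne1
    exact hk1 (h.eq_one_of_commute hi (h.isConj_involution hi horder)
      (mul_inv_eq_iff_eq_mul.1 hcent).symm hab ha hb)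
  -- Glauberman's `Z*`
  haveI : Fact (Nat.Prime 2) := ⟨Nat.prime_two⟩
  have hord := h.orderOf_conj hu
  obtain ⟨P, hP⟩ := (show IsPGroup 2 (Subgroup.zpowers u) from
    IsPGroup.of_card (n := 1) (by rw [Nat.card_zpowers, hord, pow_one])).exists_le_sylow
  have huP : u ∈ P := hP (Subgroup.mem_zpowers u)
  haveI : Nontrivial (P : Subgroup G) :=
    ⟨⟨⟨u, huP⟩, 1, fun e => by
      have : u = 1 := congrArg Subtype.val e
      rw [this, orderOf_one] at hord
      omega⟩⟩
  haveI : Nontrivial (Subgroup.center (P : Subgroup G)) := P.2.center_nontrivial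
  have hZ2 : 2 ∣ Nat.card (Subgroup.center (P : Subgroup G)) := by
    obtain ⟨n, hn⟩ := (P.2.to_subgroup (Subgroup.center (P : Subgroup G))).exists_card_eq
    rcases n with _ | n
    · exact absurd hn (Finite.one_lt_card (α := Subgroup.center (P : Subgroup G))).ne'
    · exact ⟨2 ^ n, by rw [hn, pow_succ']⟩
  obtain ⟨z, hz⟩ := exists_prime_orderOf_dvd_card' 2 hZ2
  rw [← Subgroup.orderOf_coe, ← Subgroup.orderOf_coe] at hz
  have hzc : ∀ p ∈ (P : Subgroup G), Commute p ((z : (P : Subgroup G)) : G) := fun p hp =>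
    congrArg Subtype.val (Subgroup.mem_center_iff.1 z.2 ⟨p, hp⟩)
  have hzu := hunique _ hz (hzc u huP).symm
  have hiso : ∀ g : G, g * u * g⁻¹ ∈ P → g * u * g⁻¹ = u := by
    intro g hg
    refine hunique _ (by rw [← MulAut.conj_apply, MulEquiv.orderOf_eq, hord]) ?_
    have := hzc _ hg
    rwa [hzu] at this
  obtain ⟨N, hNn, hNodd, hNcomm⟩ := Cfsg.Agent.S0215.result P u hord huP hiso
  haveI := hNn
  have hNbot : N ≠ ⊥ := by
    intro e
    have hcen : ∀ g : G, Commute g t := by
      intro g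
      have hu' : ∀ g : G, Commute g u := fun g => by
        have := Subgroup.mem_bot.1 (e ▸ hNcomm g)
        have e1 : u * g * u⁻¹ = g := by
          calc u * g * u⁻¹ = (u * g * u⁻¹ * g⁻¹) * g := by group
            _ = g := by rw [this, one_mul]
        exact (mul_inv_eq_iff_eq_mul.1 e1).symm
      obtain ⟨p, hp⟩ := isConj_iff.1 hu
      have : t = u := by
        have := (hu' p).eq
        rw [← hp] at this ⊢
        have h' : p * (p * t * p⁻¹) * p⁻¹ = p * t * p⁻¹ := by rw [this]; group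
        have h'' := congrArg (fun x => p⁻¹ * x * p) h'
        simp only [mul_assoc, inv_mul_cancel_left, inv_mul_cancel, mul_one] at h''
        simpa [mul_assoc] using h''.symm
      rw [this]; exact hu' g
    have htop : Subgroup.centralizer ({t} : Set G) = ⊤ :=
      eq_top_iff.2 fun g _ => Subgroup.mem_centralizer_singleton_iff.2 (hcen g).eq
    have hC := h.card_centralizer
    rw [htop, Subgroup.card_top, h.card_group hab, hi1] at hC
    have hn := h.two_le
    have hn3 : 3 ≤ Fintype.card Ω := Fintype.two_lt_card_iff.2 ⟨a, b, c, hab, hac, hbc⟩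
    have hdpos : 0 < Nat.card D := Nat.card_pos
    have : (Fintype.card Ω - 1) * 3 ≤ Fintype.card Ω * (Fintype.card Ω - 1) * Nat.card D := by
      calc (Fintype.card Ω - 1) * 3 ≤ (Fintype.card Ω - 1) * Fintype.card Ω := Nat.mul_le_mul_left _ hn3
        _ = Fintype.card Ω * (Fintype.card Ω - 1) * 1 := by ring
        _ ≤ _ := Nat.mul_le_mul_left _ hdpos
    rw [hD] at this
    omega
  haveI : Group.IsSolvable N := Cfsg.Agent.S0205.result hNodd
  haveI : Nontrivial N := (Subgroup.nontrivial_iff_ne_bot N).2 hNbot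
  -- the last non-trivial term of the derived series
  have hex : ∃ n, derivedSeries N n = ⊥ := (Group.isSolvable_def N).1 inferInstance
  let m := Nat.find hex
  have hm : derivedSeries N m = ⊥ := Nat.find_spec hex
  have hm0 : m ≠ 0 := fun e => by
    rw [e, derivedSeries_zero] at hm
    exact top_ne_bot hm
  obtain ⟨j, hj⟩ : ∃ j, m = j + 1 := ⟨m - 1, by omega⟩
  have hjne : derivedSeries N j ≠ ⊥ := Nat.find_min hex (show j < m by omega)
  have hjab : ∀ x ∈ derivedSeries N j, ∀ y ∈ derivedSeries N j, x * y = y * x := by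
    intro x hx y hy
    have : ⁅x, y⁆ ∈ derivedSeries N (j + 1) := Subgroup.commutator_mem_commutator hx hy
    rw [← hj, hm, Subgroup.mem_bot] at this
    exact commutatorElement_eq_one_iff_mul_comm.1 this
  let R : Subgroup G := (derivedSeries N j).map N.subtype
  haveI hRn : R.Normal := inferInstance
  have hRne : R ≠ ⊥ := fun e => hjne ((Subgroup.map_eq_bot_iff_of_injective _ N.subtype_injective).1 e)
  haveI := h.isMultiplyPretransitive
  haveI : IsPreprimitive G Ω := isPreprimitive_of_is_two_pretransitive inferInstance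
  have htrans : IsPretransitive R Ω := by
    refine IsQuasiPreprimitive.isPretransitive_of_normal (G := G) fun e => hRne ?_
    rw [Subgroup.eq_bot_iff_forall]
    intro r hr
    exact h.eq_one fun x => by
      have hx : x ∈ fixedPoints R Ω := by rw [e]; trivial
      exact hx ⟨r, hr⟩
  refine ⟨R, hRn, fun x y => ?_, fun x r hr hrx => ?_⟩
  · obtain ⟨r, hr⟩ := htrans.exists_smul_eq x y
    exact ⟨r.1, r.2, hr⟩
  · refine h.eq_one fun y => ?_
    obtain ⟨⟨m', hm'⟩, hy⟩ := htrans.exists_smul_eq x y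
    obtain ⟨r₀, hr₀, rfl⟩ := hr
    obtain ⟨m₀, hm₀, rfl⟩ := hm'
    rw [← hy]
    show (r₀ : G) • ((m₀ : G) • x) = (m₀ : G) • x
    rw [← mul_smul, ← Subgroup.coe_mul, hjab r₀ hr₀ m₀ hm₀, Subgroup.coe_mul, mul_smul]
    exact congrArg _ hrx

theorem zassenhaus_or (hreg : ¬ HasRegularNormal G Ω)
    (h3 : ∀ g : G, ∀ a b c : Ω, a ≠ b → b ≠ c → a ≠ c → g • a = a → g • b = b → g • c = c → g = 1)
    (hd : ∃ g : G, g ≠ 1 ∧ ∃ a b : Ω, a ≠ b ∧ g • a = a ∧ g • b = b) :
    Cfsg.IsZassenhausGroup G Ω := by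
  refine ⟨h.faithful, h.isMultiplyPretransitive, h3, hd, fun N hN htr => ?_⟩
  by_contra hne
  push Not at hne
  haveI := htr
  exact hreg ⟨N, hN, fun x y => by
    obtain ⟨r, hr⟩ := exists_smul_eq (↥N) x y
    exact ⟨r.1, r.2, hr⟩, fun x r hr hrx => by
    have hs : (⟨r, hr⟩ : N) ∈ stabilizer N x := hrx
    rw [hne x, Subgroup.mem_bot] at hs
    exact congrArg Subtype.val hs⟩

theorem hasRegularNormal_of_sharp (hd : ∀ g : G, ∀ a b : Ω, a ≠ b → g • a = a → g • b = b → g = 1) :
    HasRegularNormal G Ω := by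
  classical
  let f := MulAction.toPermHom G Ω
  let G' := f.range
  haveI : IsMultiplyPretransitive G' Ω 2 := by
    refine is_two_pretransitive_iff.2 fun {a b c d} hab hcd => ?_
    obtain ⟨g, h1, h2⟩ := h.two a b c d hab hcd
    exact ⟨⟨f g, g, rfl⟩, h1, h2⟩
  have hsharp : ∀ x : Fin 2 ↪ Ω, stabilizer G' x = ⊥ := by
    intro x
    rw [Subgroup.eq_bot_iff_forall]
    rintro ⟨σ, g, rfl⟩ hg
    have h0 : g • x 0 = x 0 := DFunLike.congr_fun hg 0
    have h1 : g • x 1 = x 1 := DFunLike.congr_fun hg 1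
    have := hd g _ _ (fun e => absurd (x.injective e) (by decide)) h0 h1
    subst this
    exact Subtype.ext f.map_one
  obtain ⟨p, -, hp, -, -, hP⟩ := Cfsg.Agent.S0680.result G' hsharp h.two_le
  haveI := Fact.mk hp
  obtain ⟨P⟩ : Nonempty (Sylow p G') := inferInstance
  obtain ⟨hPn, -, -, hPt, hPr, -⟩ := hP ⟨hp⟩ P
  haveI := hPn
  refine ⟨(P : Subgroup G').comap f.rangeRestrict, inferInstance, fun x y => ?_, fun x r hr hrx => ?_⟩
  · obtain ⟨⟨⟨σ, g, rfl⟩, hs⟩, hxy⟩ := hPt.exists_smul_eq x y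
    exact ⟨g, hs, hxy⟩
  · have hs : (⟨f.rangeRestrict r, hr⟩ : (P : Subgroup G')) ∈ stabilizer (P : Subgroup G') x := hrx
    rw [hPr x, Subgroup.mem_bot] at hs
    refine h.eq_one fun y => ?_
    have e : f r = 1 := congrArg Subtype.val (congrArg Subtype.val hs)
    exact congrArg (fun σ : Equiv.Perm Ω => σ y) e

/-- Fixity at most one without regular normal subgroup: a simple Zassenhaus group. -/
theorem psl_or_suzuki_of_le_one (hi : i ≤ 1) (hreg : ¬ HasRegularNormal G Ω) :
    (∃ (F : Type) (_ : Field F) (_ : Fintype F), Nonempty (G ≃* Matrix.ProjectiveSpecialLinearGroup (Fin 2) F)) ∨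
      Cfsg.Lie.IsoSuzuki G := by
  classical
  have hd : ∃ g : G, g ≠ 1 ∧ ∃ a b : Ω, a ≠ b ∧ g • a = a ∧ g • b = b := by
    by_contra hne
    push Not at hne
    exact hreg (h.hasRegularNormal_of_sharp fun g a b hab ha hb => by
      by_contra hg
      exact hne g hg a b hab ha hb)
  have hZ := h.zassenhaus_or hreg (fun g a b c hab hbc hac ha hb hc => by
    by_contra hg
    exact hreg (h.hasRegularNormal_of_three hi hab hbc hac hg ha hb hc)) hd
  haveI : Nontrivial G := by
    obtain ⟨g, hg, -⟩ := hd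
    exact ⟨⟨g, 1, hg⟩⟩
  haveI : IsSimpleGroup G := by
    refine { eq_bot_or_eq_top_of_normal := fun N hN => or_iff_not_imp_left.2 fun hNbot => ?_ }
    haveI := hN
    obtain ⟨-, hN2, -⟩ := Cfsg.Agent.S0339.result hZ N hNbot
    have hswap : ∀ {a b : Ω}, a ≠ b → ∀ {g : G}, g • a = b → g • b = a → g ∈ N := by
      intro a b hab g hga hgb
      obtain ⟨r, hra, hrb⟩ := (is_two_pretransitive_iff.1 hN2) hab hab.symm
      obtain ⟨p, hp⟩ := isConj_iff.1 ((h.isConj_of_swap hab (g := r.1) hra hrb).symm.trans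
        (h.isConj_of_swap hab hga hgb))
      exact hp ▸ hN.conj_mem _ r.2 p
    obtain ⟨a, b, hab⟩ := Fintype.exists_pair_of_one_lt_card h.two_le
    refine eq_top_iff.2 fun g _ => ?_
    obtain ⟨r, hra, hrb⟩ := (is_two_pretransitive_iff.1 hN2) hab
      (fun e => hab (smul_left_cancel g e) : g • a ≠ g • b)
    obtain ⟨s, -, hsa, hsb⟩ := h.exists_swap hab
    have hra' : r.1 • a = g • a := hra
    have hrb' : r.1 • b = g • b := hrb
    have h1 : (r.1⁻¹ * g) • a = a := by rw [mul_smul, inv_smul_eq_iff]; exact hra'.symm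
    have h2 : (r.1⁻¹ * g) • b = b := by rw [mul_smul, inv_smul_eq_iff]; exact hrb'.symm
    have hk : s * (r.1⁻¹ * g) ∈ N :=
      hswap hab (by rw [mul_smul, h1, hsa]) (by rw [mul_smul, h2, hsb])
    have hs : s ∈ N := hswap hab hsa hsb
    have := mul_mem r.2 (mul_mem (inv_mem hs) hk)
    simpa using this
  exact CfsgLib.SuzukiIdent.simple_zassenhaus hZ

end Hyp

end CfsgLib.ConstFix
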